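import Cfsg.Agent.DefOne.Structure
import Cfsg.Agent.Block.DefectGroup
import Cfsg.Agent.Block.FirstMain
import Cfsg.Agent.Block.Degrees
import Cfsg.Agent.CharInd.Ito
import Cfsg.Agent.Char.Orthogonality

/-!
# Counting characters of degree prime to `p` when `p` divides the order exactly once
-/

set_option autoImplicit false
set_option linter.style.haveILetI false
set_option linter.unusedSectionVars false

namespace Cfsg.Agent.DefOne

open Cfsg
open scoped Classical

universe u

variable {G : Type u} [Group G] [Fintype G] {p : ℕ} [Fact p.Prime] {P : Sylow p G}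
variable {M : Ideal AlgInt}

/-- Trivial on the Sylow subgroup, without reference to a generator. -/
def TrivP (θ : IrrCharacter (CP P)) : Prop :=
  ∀ x : CP P, (x : G) ∈ (P : Subgroup G) → (θ : CP P → ℂ) x = (θ : CP P → ℂ) 1

/-- The contribution of a character of the centraliser. -/
noncomputable def weight (θ : IrrCharacter (CP P)) : ℚ :=
  let s : ℕ := Nat.card {n : NP P // Loc.tw n θ = θ}
  let e : ℕ := s / Nat.card (CP P)
  ((e + (p - 1) / e : ℕ) : ℚ) * s / Nat.card (NP P)

namespace Loc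

variable (L : Loc P)

theorem triv_iff {θ : IrrCharacter (CP P)} : L.Triv (θ : CP P → ℂ) ↔ TrivP θ :=
  ⟨fun h _ hx => L.apply_of_triv h hx, fun h => L.triv_of_apply θ.2 h⟩

theorem card_stab_eq (θ : IrrCharacter (CP P)) :
    Nat.card (L.stab θ) = Nat.card (CP P) * Nat.card (L.autG θ) := by
  rw [L.card_autG_eq, Subgroup.relIndex]
  have hle : (CP P).subgroupOf (NP P) ≤ L.stab θ := by
    intro n hn
    rw [L.mem_stab]
    refine Subtype.ext (funext fun c => ?_)
    rw [tw_apply, show cjC n c = (⟨n, hn⟩ : CP P) * c * (⟨n, hn⟩ : CP P)⁻¹ from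
      Subtype.ext (L.coe_cjC n c)]
    exact Char.irr_isClassFunction θ.2 c _
  have h := (((CP P).subgroupOf (NP P)).subgroupOf (L.stab θ)).card_mul_index
  rw [Nat.card_congr (Subgroup.subgroupOfEquivOfLe hle).toEquiv,
    Nat.card_congr (Subgroup.subgroupOfEquivOfLe (Subgroup.centralizer_le_normalizer _)).toEquiv] at h
  exact h.symm

theorem weight_eq (θ : IrrCharacter (CP P)) :
    weight θ = ((Nat.card (L.autG θ) + Nat.card (L.Exc θ) : ℕ) : ℚ) / (L.stab θ).index := by
  have hs : Nat.card {n : NP P // Loc.tw n θ = θ} = Nat.card (L.stab θ) := rfl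
  have he : Nat.card (L.stab θ) / Nat.card (CP P) = Nat.card (L.autG θ) := by
    rw [L.card_stab_eq, Nat.mul_div_cancel_left _ Nat.card_pos]
  have hx : (p - 1) / Nat.card (L.autG θ) = Nat.card (L.Exc θ) := by
    rw [← L.card_Exc_mul θ, Nat.mul_div_cancel _ Nat.card_pos]
  have hN : (Nat.card (NP P) : ℚ) = (Nat.card (L.stab θ) : ℚ) * (L.stab θ).index := by
    exact_mod_cast (L.stab θ).card_mul_index.symm
  have h1 : (Nat.card (L.stab θ) : ℚ) ≠ 0 := Nat.cast_ne_zero.2 Nat.card_pos.ne'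
  have h2 : ((L.stab θ).index : ℚ) ≠ 0 := Nat.cast_ne_zero.2 Subgroup.index_ne_zero_of_finite
  simp only [weight, hs, he, hx]
  rw [hN]
  field_simp

include L in
theorem isDefectGroup_of_induced (hM : IsPModular p M) {b : Set (IrrCharacter (CP P))}
    {B : Set (IrrCharacter G)} (hb : IsInducedBlock M (CP P) b B) :
    IsDefectGroup p M B (P : Subgroup G) := by
  haveI : M.IsPrime := hM.2.1.isPrime
  obtain ⟨E, hE, hPE⟩ := Block.exists_defectGroup_ge_of_induced hM P.isPGroup' L.P_le_CP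
    (Subgroup.centralizer_le_normalizer _) hb
  rwa [← P.is_maximal' (Block.isDefectGroup_isPGroup hE) hPE]

include L in
theorem not_dvd_theta {θ : IrrCharacter (CP P)} : ¬ p ∣ charDegree (θ : CP P → ℂ) := by
  obtain ⟨n, ρ, hρ, he⟩ := θ.2
  haveI := hρ
  set A := (P : Subgroup G).subgroupOf (CP P) with hA
  haveI : A.Normal := ⟨fun a ha g => by
    rw [hA, Subgroup.mem_subgroupOf] at ha ⊢
    rw [Subgroup.coe_mul, Subgroup.coe_mul, Subgroup.coe_inv,
      (Subgroup.mem_centralizer_iff.1 g.2 _ ha).symm, mul_inv_cancel_right]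
    exact ha⟩
  have hd := CharInd.finrank_dvd_index_of_comm_normal ρ A fun a ha b _ => Subtype.ext
    (Subgroup.mem_centralizer_iff.1 b.2 _ (Subgroup.mem_subgroupOf.1 ha))
  have hdeg : charDegree (θ : CP P → ℂ) = n := by
    rw [← he]; simp [charDegree]
  rw [hdeg]
  rw [Module.finrank_fin_fun] at hd
  intro hp
  exact P.not_dvd_index ((hp.trans hd).trans (Dvd.intro _ (Subgroup.relIndex_mul_index L.P_le_CP)))

theorem stab_index_not_dvd (θ : IrrCharacter (CP P)) : ¬ p ∣ (L.stab θ).index := by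
  intro h
  have h1 : ((P : Subgroup G).subgroupOf (NP P)) ≤ L.stab θ := by
    intro n hn
    have hle : (CP P).subgroupOf (NP P) ≤ L.stab θ := by
      intro n hn
      rw [L.mem_stab]
      refine Subtype.ext (funext fun c => ?_)
      rw [tw_apply, show cjC n c = (⟨n, hn⟩ : CP P) * c * (⟨n, hn⟩ : CP P)⁻¹ from
        Subtype.ext (L.coe_cjC n c)]
      exact Char.irr_isClassFunction θ.2 c _
    exact hle (L.P_le_CP hn)
  have h2 := Subgroup.index_dvd_of_le h1
  exact P.not_dvd_index ((h.trans h2).trans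
    (Dvd.intro _ (Subgroup.relIndex_mul_index (Subgroup.le_normalizer : (P : Subgroup G) ≤ NP P))))

include L in
theorem not_dvd_of_mem (hM : IsPModular p M) {B : Set (IrrCharacter G)}
    (hB : IsPBlock M B) (hBP : IsDefectGroup p M B P) {χ : IrrCharacter G} (hχ : χ ∈ B) :
    ¬ p ∣ charDegree (χ : G → ℂ) := by
  have hp : p.Prime := Fact.out
  obtain ⟨b, hb, θ, hθ, hθt⟩ := L.exists_root hM hB hBP
  obtain ⟨Y, δ, ε, hYi, hYB, -, hδ, hε, hX, hY, -, -⟩ := L.exists_data hM hB hBP hb hθ hθt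
  have hd := hδ χ hχ
  have he : ¬ p ∣ Nat.card (L.autG θ) := fun h => by
    have h1 := L.card_Exc_mul θ
    have h2 : p ∣ p - 1 := h1 ▸ h.mul_left _
    have := Nat.le_of_dvd (by have := hp.two_le; omega) h2
    have := hp.two_le
    omega
  obtain ⟨s, hs, hsp⟩ : ∃ s : ℤ, ∑ c : (ZMod p)ˣ, L.row (χ : G → ℂ) θ c = (s : ℂ) ∧
      ¬ (p : ℤ) ∣ s := by
    by_cases hχY : χ ∈ Set.range Y
    · obtain ⟨q, rfl⟩ := hχY
      refine ⟨((Finset.univ.filter fun c : (ZMod p)ˣ => (c : L.Exc θ) = q).card : ℤ) * δ (Y q),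
        ?_, ?_⟩
      · rw [Finset.sum_congr rfl fun c _ => hY q c, ← Finset.sum_filter, Finset.sum_const,
          nsmul_eq_mul]
        push_cast
        ring
      · have hcard : (Finset.univ.filter fun c : (ZMod p)ˣ => (c : L.Exc θ) = q).card =
            Nat.card (L.autG θ) := by
          rw [← Fintype.card_subtype, ← Nat.card_eq_fintype_card]
          refine Nat.card_congr
            { toFun := fun c => ⟨q.out⁻¹ * c.1, QuotientGroup.eq.1 (q.out_eq'.trans c.2.symm)⟩
              invFun := fun h => ⟨q.out * (h : (ZMod p)ˣ), ?_⟩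
              left_inv := fun c => Subtype.ext (mul_inv_cancel_left _ _)
              right_inv := fun h => Subtype.ext (inv_mul_cancel_left _ _) }
          rw [QuotientGroup.mk_mul, QuotientGroup.out_eq', (QuotientGroup.eq_one_iff _).2 h.2,
            mul_one]
        rw [hcard]
        rcases hd with h | h <;> rw [h]
        · rw [mul_one]; exact_mod_cast he
        · rw [mul_neg_one, dvd_neg]; exact_mod_cast he
    · refine ⟨((p - 1 : ℕ) : ℤ) * δ χ, ?_, ?_⟩
      · rw [Finset.sum_congr rfl fun c _ => hX χ hχ hχY c, Finset.sum_const, Finset.card_univ,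
          ZMod.card_units_eq_totient, Nat.totient_prime hp, nsmul_eq_mul]
        push_cast
        ring
      · have h1 : ¬ p ∣ p - 1 := fun h => by
          have := Nat.le_of_dvd (by have := hp.two_le; omega) h
          have := hp.two_le
          omega
        rcases hd with h | h <;> rw [h]
        · rw [mul_one]; exact_mod_cast h1
        · rw [mul_neg_one, dvd_neg]; exact_mod_cast h1
  obtain ⟨m, hm⟩ := L.exists_degree hM hB hBP hb hθ hθt hχ hs
  intro hdvd
  have h2 : (p : ℤ) ∣ s * (((L.stab θ).index * charDegree (θ : CP P → ℂ) : ℕ) : ℤ) := by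
    have h3 : (p : ℤ) ∣ (p : ℤ) * m + s * (((L.stab θ).index * charDegree (θ : CP P → ℂ) : ℕ) : ℤ) :=
      hm ▸ Int.natCast_dvd_natCast.2 hdvd
    exact (dvd_add_right (dvd_mul_right _ _)).1 h3
  rcases (Nat.prime_iff_prime_int.1 hp).dvd_mul.1 h2 with h | h
  · exact hsp h
  · rcases hp.dvd_mul.1 (Int.natCast_dvd_natCast.1 h) with h | h
    · exact L.stab_index_not_dvd θ h
    · exact L.not_dvd_theta h

theorem defectGroup_of_not_dvd (hM : IsPModular p M) {B : Set (IrrCharacter G)}
    (hB : IsPBlock M B) {χ : IrrCharacter G} (hχ : χ ∈ B)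
    (hdeg : ¬ p ∣ charDegree (χ : G → ℂ)) : IsDefectGroup p M B (P : Subgroup G) := by
  haveI := Block.isPrime_of_isPModular hM
  obtain ⟨D, hD⟩ := Block.exists_isDefectGroup (p := p) hB
  have hd : blockDefect p B = (Nat.card G).factorization p := by
    have h0 : sInf ((fun ψ : IrrCharacter G => (charDegree (ψ : G → ℂ)).factorization p) '' B) = 0 :=
      Nat.eq_zero_of_le_zero (le_trans (Nat.sInf_le (Set.mem_image_of_mem _ hχ))
        (Nat.factorization_eq_zero_of_not_dvd hdeg).le)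
    rw [blockDefect, h0, Nat.sub_zero]
  obtain ⟨Q, hQ⟩ := (Block.isDefectGroup_isPGroup hD).exists_le_sylow
  obtain ⟨c, hc'⟩ := MulAction.exists_smul_eq G P Q
  refine Block.isDefectGroup_of_card_le hM hB hD ⟨c, ?_⟩ ?_
  · have hc := Block.card_isDefectGroup hM hB hD
    rw [hd, ← Q.card_eq_multiplicity] at hc
    rw [Subgroup.eq_of_le_of_card_ge hQ hc.ge, ← hc', Sylow.coe_subgroup_smul]
    exact le_of_eq rfl
  · rw [Block.card_isDefectGroup hM hB hD, hd, ← P.card_eq_multiplicity]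

include L in
theorem card_pPrime (hM : IsPModular p M) :
    (Nat.card {χ : IrrCharacter G // ¬ p ∣ charDegree (χ : G → ℂ)} : ℚ) =
      ∑ θ ∈ Finset.univ.filter (fun θ : IrrCharacter (CP P) => TrivP θ), weight θ := by
  haveI := Block.isPrime_of_isPModular hM
  choose Φ hΦ using fun θ : IrrCharacter (CP P) => L.exists_induced hM θ
  have hdefΦ : ∀ θ, IsDefectGroup p M (Φ θ) (P : Subgroup G) := fun θ =>
    L.isDefectGroup_of_induced hM (hΦ θ)
  set T := Finset.univ.filter (fun θ : IrrCharacter (CP P) => TrivP θ) with hT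
  have hTm : ∀ {θ}, θ ∈ T → L.Triv (θ : CP P → ℂ) := fun hθ =>
    L.triv_iff.2 (Finset.mem_filter.1 hθ).2
  have htw : ∀ θ ∈ T, ∀ n : NP P, Φ (tw n θ) = Φ θ := by
    intro θ hθ n
    obtain ⟨χ, hχ⟩ := Block.pBlock_nonempty (hΦ (tw n θ)).2.1
    obtain ⟨i, hi, hne⟩ := L.exists_coef_ne_zero hM (hΦ _).2.1 (hdefΦ _) (hΦ _)
      (Block.mem_blockOf_self (tw n θ)) (L.triv_tw n (hTm hθ)) hχ
    rw [L.coef_tw n (Char.irr_isClassFunction χ.2)] at hne
    by_contra h
    refine hne (L.coef_eq_zero hM (Block.mem_blockOf_self θ) (hΦ θ) (fun hmem => h ?_)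
      (mul_ne_zero (L.act n).ne_zero hi))
    exact Block.pBlock_eq_of_mem (hΦ _).2.1 (hΦ θ).2.1 hχ hmem
  have hfib : ∀ θ ∈ T, T.filter (fun η => Φ η = Φ θ) =
      Finset.univ.image (fun n : NP P => tw n θ) := by
    intro θ hθ
    ext η
    constructor
    · intro hη
      obtain ⟨hηT, hηΦ⟩ := Finset.mem_filter.1 hη
      obtain ⟨n, hn⟩ := L.exists_tw_eq hM (hΦ θ).2.1 (hdefΦ θ) (hΦ θ) (hηΦ ▸ hΦ η)
        (Block.mem_blockOf_self θ) (hTm hθ) (Block.mem_blockOf_self η) (hTm hηT)
      exact Finset.mem_image.2 ⟨n, Finset.mem_univ _, hn⟩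
    · intro hη
      obtain ⟨n, -, rfl⟩ := Finset.mem_image.1 hη
      exact Finset.mem_filter.2 ⟨Finset.mem_filter.2 ⟨Finset.mem_univ _,
        L.triv_iff.1 (L.triv_tw n (hTm hθ))⟩, htw θ hθ n⟩
  rw [← Finset.sum_fiberwise_of_maps_to (g := Φ) (t := T.image Φ)
    (fun θ hθ => Finset.mem_image_of_mem _ hθ)]
  have hblock : ∀ B ∈ T.image Φ, ∑ η ∈ T.filter (fun η => Φ η = B), weight η =
      ((Finset.univ.filter fun χ : IrrCharacter G => χ ∈ B).card : ℚ) := by
    intro B hB
    obtain ⟨θ, hθ, rfl⟩ := Finset.mem_image.1 hB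
    obtain ⟨Y, δ, ε, -, -, hcard, -, -, -, -, -, -⟩ :=
      L.exists_data hM (hΦ θ).2.1 (hdefΦ θ) (hΦ θ) (Block.mem_blockOf_self θ) (hTm hθ)
    have hval : ∀ η ∈ T.filter (fun η => Φ η = Φ θ),
        weight η = (Nat.card (Φ θ) : ℚ) / ((L.stab θ).index : ℚ) := by
      intro η hη
      obtain ⟨hηT, hηΦ⟩ := Finset.mem_filter.1 hη
      obtain ⟨Y', δ', ε', -, -, hcard', -, -, -, -, -, -⟩ :=
        L.exists_data hM (hΦ η).2.1 (hdefΦ η) (hΦ η) (Block.mem_blockOf_self η) (hTm hηT)
      rw [L.weight_eq, ← hcard', hηΦ]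
      congr 2
      rw [← L.card_orbit, ← L.card_orbit, ← hfib θ hθ, ← hfib η hηT, hηΦ]
    rw [Finset.sum_congr rfl hval, Finset.sum_const, hfib θ hθ, L.card_orbit, nsmul_eq_mul,
      mul_div_cancel₀ _ (Nat.cast_ne_zero.2 Subgroup.index_ne_zero_of_finite),
      ← Fintype.card_subtype, ← Nat.card_eq_fintype_card]
  rw [Finset.sum_congr rfl hblock, ← Nat.cast_sum, Nat.cast_inj]
  rw [Nat.card_eq_fintype_card, Fintype.card_subtype, ← Finset.card_biUnion]
  · congr 1
    ext χ
    simp only [Finset.mem_filter, Finset.mem_univ, true_and, Finset.mem_biUnion]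
    constructor
    · intro hχ
      have hB := Block.isPBlock_blockOf (M := M) χ
      have hBP := defectGroup_of_not_dvd (P := P) hM hB (Block.mem_blockOf_self χ) hχ
      obtain ⟨b, hb, θ, hθ, hθt⟩ := L.exists_root hM hB hBP
      have hθT : θ ∈ T := Finset.mem_filter.2 ⟨Finset.mem_univ _, L.triv_iff.1 hθt⟩
      refine ⟨Φ θ, Finset.mem_image_of_mem _ hθT, ?_⟩
      have hb' : b = blockOf M (θ : CP P → ℂ) := Block.pBlock_eq hb.1 hθ
      subst hb'
      rw [Block.isInducedBlock_unique (hΦ θ) hb]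
      exact Block.mem_blockOf_self χ
    · rintro ⟨B, hB, hχ⟩
      obtain ⟨θ, -, rfl⟩ := Finset.mem_image.1 hB
      exact L.not_dvd_of_mem hM (hΦ θ).2.1 (hdefΦ θ) hχ
  · intro B hB B' hB' hne
    obtain ⟨θ, -, rfl⟩ := Finset.mem_image.1 hB
    obtain ⟨θ', -, rfl⟩ := Finset.mem_image.1 hB'
    refine Finset.disjoint_left.2 fun χ h h' => hne ?_
    exact Block.pBlock_eq_of_mem (hΦ θ).2.1 (hΦ θ').2.1 (Finset.mem_filter.1 h).2
      (Finset.mem_filter.1 h').2

end Loc

theorem mckay_count (hdiv : Nat.card P = p) (M : Ideal AlgInt) (hM : IsPModular p M) :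
    Nat.card {χ : IrrCharacter G // ¬ p ∣ charDegree (χ : G → ℂ)} =
      Nat.card (ConjClasses (NP P)) := by
  obtain ⟨L⟩ := exists_loc P hdiv
  set Q : Sylow p (NP P) := P.subtype Subgroup.le_normalizer with hQ
  have hQcard : Nat.card Q = p := by
    refine Eq.trans ?_ hdiv
    exact Nat.card_congr (Subgroup.subgroupOfEquivOfLe Subgroup.le_normalizer).toEquiv
  obtain ⟨LN⟩ := exists_loc Q hQcard
  haveI : ((Q : Subgroup (NP P))).Normal := Subgroup.normal_in_normalizer
  have hall : ∀ χ : IrrCharacter (NP P), ¬ p ∣ charDegree (χ : NP P → ℂ) := by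
    intro χ hd
    obtain ⟨n, ρ, hρ, he⟩ := χ.2
    haveI := hρ
    have h1 := CharInd.finrank_dvd_index_of_comm_normal ρ (Q : Subgroup (NP P))
      fun a ha b hb => (Subgroup.mem_centralizer_iff.1 (LN.P_le_CP hb) a ha)
    have hdeg : charDegree (χ : NP P → ℂ) = n := by
      rw [← he]; simp [charDegree]
    rw [hdeg] at hd
    rw [Module.finrank_fin_fun] at h1
    exact Q.not_dvd_index (hd.trans h1)
  rw [← Char.card_irr_eq_card_conjClasses,
    ← Nat.card_congr (Equiv.subtypeUnivEquiv hall)]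
  apply Nat.cast_injective (R := ℚ)
  rw [L.card_pPrime hM, LN.card_pPrime hM]
  have hCN : CP P ≤ NP P := Subgroup.centralizer_le_normalizer _
  have hmem : ∀ x : NP P, x ∈ CP Q ↔ (x : G) ∈ CP P := by
    intro x
    simp only [CP, Subgroup.mem_centralizer_iff]
    constructor
    · intro h g hg
      exact congrArg Subtype.val (h ⟨g, Subgroup.le_normalizer hg⟩ hg)
    · intro h g hg
      exact Subtype.ext (h g hg)
  let ι : CP Q ≃* CP P :=
    { toFun := fun x => ⟨((x : NP P) : G), (hmem x).1 x.2⟩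
      invFun := fun x => ⟨⟨x, hCN x.2⟩, (hmem _).2 x.2⟩
      left_inv := fun x => rfl
      right_inv := fun x => rfl
      map_mul' := fun x y => rfl }
  let E : IrrCharacter (CP P) ≃ IrrCharacter (CP Q) :=
    { toFun := fun θ => ⟨(θ : CP P → ℂ) ∘ ι, Char.isIrrCharacter_comp_mulEquiv θ.2 ι⟩
      invFun := fun θ => ⟨(θ : CP Q → ℂ) ∘ ι.symm, Char.isIrrCharacter_comp_mulEquiv θ.2 ι.symm⟩
      left_inv := fun θ => Subtype.ext (funext fun x => rfl)
      right_inv := fun θ => Subtype.ext (funext fun x => rfl) }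
  have hT : ∀ θ, TrivP θ ↔ TrivP (E θ) := fun θ =>
    ⟨fun h x hx => (h (ι x) hx).trans rfl, fun h x hx => (h (ι.symm x) hx).trans rfl⟩
  refine Finset.sum_equiv E (fun θ => by simp [hT θ]) fun θ _ => ?_
  have htop : NP Q = ⊤ := Subgroup.normalizer_eq_top _
  have hst : Nat.card {n : NP P // Loc.tw n θ = θ} =
      Nat.card {n : NP Q // Loc.tw n (E θ) = E θ} := by
    refine Nat.card_congr (Equiv.subtypeEquiv
      ((Equiv.subtypeUnivEquiv (fun x => htop ▸ Subgroup.mem_top x)).symm) fun n => ?_)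
    constructor
    · intro h
      refine Subtype.ext (funext fun c => ?_)
      exact congrFun (congrArg Subtype.val h) (ι c)
    · intro h
      refine Subtype.ext (funext fun c => ?_)
      exact congrFun (congrArg Subtype.val h) (ι.symm c)
  have hNc : Nat.card (NP Q) = Nat.card (NP P) := by rw [htop, Subgroup.card_top]
  simp only [weight, hst, hNc, Nat.card_congr ι.toEquiv]

end Cfsg.Agent.DefOne
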